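import Cfsg.Agent.Bz.A

/-! The integer moment argument for the members of `p'`-degree of the principal block. -/

set_option autoImplicit false
open Cfsg CF.Char CF.BlockB

namespace CF.K5

variable {p : ℕ} {M : Ideal AlgInt} {G : Type*} [Group G] [Finite G]

theorem gal_inj {k : ℕ} (hk : k.Coprime (Nat.card G)) : Function.Injective (gal hk) := by
  intro χ ψ h
  refine Subtype.ext (funext fun g => ?_)
  obtain ⟨x, rfl⟩ := (powCoprime hk.symm).surjective g
  exact congrFun (congrArg Subtype.val h) x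

theorem exists_int_comb (n : IrrCharacter G → ℤ)
    (hn : ∀ (k : ℕ) (hk : k.Coprime (Nat.card G)) χ, n (gal hk χ) = n χ) (g : G) :
    ∃ m : ℤ, (∑ χ : IrrCharacter G, (n χ : ℂ) • (χ : G → ℂ)) g = m := by
  refine int_of_fixed (gen_isIntegral (gen_sum_irr n) g) fun σ => ?_
  obtain ⟨m, hm, hσ⟩ := aut_exists_gen_pow (G := G) σ.toRingHom
  refine (hσ _ (gen_sum_irr n) g).trans ?_
  simp only [Finset.sum_apply, Pi.smul_apply, smul_eq_mul]
  exact Fintype.sum_bijective (gal hm) (Finite.injective_iff_bijective.1 (gal_inj hm)) _ _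
    fun χ => by rw [hn, gal_apply]

theorem v_comb_lt_one (hM : IsPModular p M) (hp : p ∣ Nat.card G) (s : Finset (IrrCharacter G))
    (hs : ∀ χ, χ ∈ s ↔ χ ∈ principalBlock M G ∧ ¬ p ∣ charDegree (χ : G → ℂ))
    (n : IrrCharacter G → ℤ) (t : ℤ) (h0 : ∀ χ, χ ∉ s → n χ = 0)
    (h1 : ∀ χ ∈ s, (p : ℤ) ∣ n χ - t * charDegree (χ : G → ℂ)) (g : G) :
    v M ((∑ χ : IrrCharacter G, (n χ : ℂ) • (χ : G → ℂ)) g) < 1 := by
  have h := CF.Bz.sum_fixed_eq_zero hM hp (nrm_eSet_pb hM) id (e := 0) (fun _ => rfl)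
    (fun _ h => h) (w := g) (fun _ => rfl) (fun _ => rfl) s (fun χ => by simp [hs])
  rw [← resC_sum fun χ _ => CF.Bz.v_term_le χ g,
    resC_eq_zero_iff (v_sum_le_one fun χ _ => CF.Bz.v_term_le χ g)] at h
  have e : (∑ χ : IrrCharacter G, (n χ : ℂ) • (χ : G → ℂ)) g =
      t * ∑ χ ∈ s, (χ : G → ℂ) 1 * (χ : G → ℂ) g +
        ∑ χ ∈ s, ((n χ - t * charDegree (χ : G → ℂ) : ℤ) : ℂ) * (χ : G → ℂ) g := by
    simp only [Finset.sum_apply, Pi.smul_apply, smul_eq_mul]
    rw [← Finset.sum_subset (Finset.subset_univ s) fun χ _ h => by simp [h0 χ h],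
      Finset.mul_sum, ← Finset.sum_add_distrib]
    refine Finset.sum_congr rfl fun χ _ => ?_
    rw [← irr_charDegree_eq]
    push_cast
    ring
  rw [e]
  exact (v M).map_add_lt (v_mul_lt_one_right (v_intCast_le_one M t) h)
    (v_sum_lt_one fun χ hχ => v_mul_lt_one_left ((v_intCast_lt_one_iff hM _).2 (h1 χ hχ))
      (v_irr_le_one χ g))

theorem moment (hM : IsPModular p M) (hp : p ∣ Nat.card G) (s : Finset (IrrCharacter G))
    (hs : ∀ χ, χ ∈ s ↔ χ ∈ principalBlock M G ∧ ¬ p ∣ charDegree (χ : G → ℂ))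
    (n : IrrCharacter G → ℤ) (h0 : ∀ χ, χ ∉ s → n χ = 0)
    (hn : ∀ (k : ℕ) (hk : k.Coprime (Nat.card G)) χ, n (gal hk χ) = n χ)
    (h1 : ∀ χ ∈ s, (p : ℤ) ∣ n χ - n (oneIrr G) * charDegree (χ : G → ℂ)) :
    p * n (oneIrr G) ≤ ∑ χ, n χ ^ 2 ∧ (∑ χ, n χ ^ 2 = p * n (oneIrr G) →
      ∑ χ, n χ * charDegree (χ : G → ℂ) = 0 ∨ ∑ χ, n χ * charDegree (χ : G → ℂ) = p) := by
  classical
  have := Fintype.ofFinite G
  set η := ∑ χ : IrrCharacter G, (n χ : ℂ) • (χ : G → ℂ) with hη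
  have hf : ∀ g, ∃ f : ℤ, η g = (p * f : ℤ) := fun g => by
    obtain ⟨m, hm⟩ := exists_int_comb n hn g
    have h := v_comb_lt_one hM hp s hs n _ h0 h1 g
    rw [hm, v_intCast_lt_one_iff hM] at h
    obtain ⟨f, rfl⟩ := h
    exact ⟨f, hm⟩
  choose f hf using hf
  have hc : (Nat.card G : ℂ) ≠ 0 := card_ne_zero_complex
  have a1 : (p : ℤ) * ∑ g, f g = Nat.card G * n (oneIrr G) := by
    have h := inner_sum_irr_left (fun χ => (n χ : ℂ)) (oneIrr G)
    rw [← hη, classInner, inv_mul_eq_iff_eq_mul₀ hc] at h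
    simp only [hf, oneIrr_apply, map_one, mul_one] at h
    rw [Finset.mul_sum]
    exact_mod_cast h
  have a2 : (p : ℤ) ^ 2 * ∑ g, f g ^ 2 = Nat.card G * ∑ χ, n χ ^ 2 := by
    have h := inner_eq_sum_irr (classFun_sum_irr fun χ => (n χ : ℂ)) η
    simp only [hη, inner_sum_irr_left, map_intCast] at h
    rw [← hη, classInner, inv_mul_eq_iff_eq_mul₀ hc] at h
    simp only [hf, map_intCast] at h
    rw [Finset.mul_sum]
    simp only [← mul_pow]
    simp only [sq]
    exact_mod_cast h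
  have a3 : ∀ g, 0 ≤ f g ^ 2 - f g := fun g => by
    rcases le_or_gt (f g) 0 with h | h <;> nlinarith
  have hG : (0 : ℤ) < Nat.card G := by exact_mod_cast Nat.card_pos
  have a4 : (Nat.card G : ℤ) * (∑ χ, n χ ^ 2 - p * n (oneIrr G)) =
      p ^ 2 * ∑ g, (f g ^ 2 - f g) := by
    rw [Finset.sum_sub_distrib]
    linear_combination p * a1 - a2
  refine ⟨sub_nonneg.1 (nonneg_of_mul_nonneg_right (a4 ▸ mul_nonneg (sq_nonneg _)
    (Finset.sum_nonneg fun g _ => a3 g)) hG |> fun h => h), fun h => ?_⟩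
  rw [h, sub_self, mul_zero, eq_comm, mul_eq_zero] at a4
  have hp0 : (p : ℤ) ≠ 0 := by exact_mod_cast hM.1.ne_zero
  have a5 := (Finset.sum_eq_zero_iff_of_nonneg fun g _ => a3 g).1
    (a4.resolve_left (pow_ne_zero 2 hp0)) 1 (Finset.mem_univ _)
  have a6 : ∑ χ, n χ * charDegree (χ : G → ℂ) = p * f 1 := by
    have h := hf 1
    simp only [hη, Finset.sum_apply, Pi.smul_apply, smul_eq_mul, ← irr_charDegree_eq] at h
    exact_mod_cast h
  rw [a6]
  have a7 : f 1 * (f 1 - 1) = 0 := by linear_combination a5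
  rcases mul_eq_zero.1 a7 with h | h
  · left; rw [h, mul_zero]
  · right; rw [sub_eq_zero.1 h, mul_one]

theorem pow_dvd_sum (hM : IsPModular p M) {j : ℕ} (hj : j ≤ 2) (h : p ^ j ∣ Nat.card G)
    (s : Finset (IrrCharacter G))
    (hs : ∀ χ, χ ∈ s ↔ χ ∈ principalBlock M G ∧ ¬ p ∣ charDegree (χ : G → ℂ)) :
    p ^ j ∣ ∑ χ ∈ s, charDegree (χ : G → ℂ) ^ 2 := by
  classical
  have h1 : p ^ j ∣ ∑ χ : IrrCharacter G with χ ∈ principalBlock M G,
      charDegree (χ : G → ℂ) ^ 2 := by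
    rw [← v_natCast_le_pow_iff hM]
    have e : ((∑ χ : IrrCharacter G with χ ∈ principalBlock M G,
        charDegree (χ : G → ℂ) ^ 2 : ℕ) : ℂ) = regB (principalBlock M G) 1 := by
      rw [regB_apply]
      simp only [← irr_charDegree_eq, sq]
      push_cast
      rfl
    rw [e, regB, map_mul]
    exact (mul_le_of_le_one_right' (nrm_le_iff.1 (nrm_eSet_pb hM) _)).trans
      ((v_natCast_le_pow_iff hM _ _).2 h)
  rw [← Finset.sum_filter_add_sum_filter_not _
    (fun χ : IrrCharacter G => p ∣ charDegree (χ : G → ℂ)), Finset.filter_filter,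
    Finset.filter_filter, Nat.dvd_add_right (Finset.dvd_sum fun χ hχ =>
      (pow_dvd_pow p hj).trans (pow_dvd_pow_of_dvd (Finset.mem_filter.1 hχ).2.2 2))] at h1
  convert h1 using 2
  ext χ
  simp [hs]

theorem exists_pad {α : Type*} (s : Finset α) (d : α → ℤ) {n : ℕ} (hs : s.card ≤ n + 1)
    (hne : s.Nonempty) : ∃ D : Fin (n + 1) → ℤ, (∃ a ∈ s, D 0 = d a) ∧
      ∀ F : ℤ → ℤ, F 0 = 0 → ∑ i, F (D i) = ∑ a ∈ s, F (d a) := by
  let E : ℕ → ℤ := fun i => if h : i < s.card then d (s.equivFin.symm ⟨i, h⟩) else 0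
  refine ⟨fun i => E i, ⟨_, (s.equivFin.symm ⟨0, hne.card_pos⟩).2, dif_pos hne.card_pos⟩,
    fun F hF => ?_⟩
  rw [Fin.sum_univ_eq_sum_range (fun i => F (E i)),
    ← Finset.sum_subset (Finset.range_subset_range.2 hs) fun i _ hi => by
      simp only [E, dif_neg (mt Finset.mem_range.2 hi), hF],
    ← Fin.sum_univ_eq_sum_range (fun i => F (E i)), ← Finset.sum_coe_sort s,
    ← Equiv.sum_comp s.equivFin.symm]
  exact Finset.sum_congr rfl fun i _ => by simp only [E, dif_pos i.2]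

open _root_.Classical in
/-- The members of `p'`-degree of the principal block. -/
noncomputable def hz (p : ℕ) (M : Ideal AlgInt) (G : Type*) [Group G] [Finite G] :
    Finset (IrrCharacter G) :=
  Finset.univ.filter fun χ => χ ∈ principalBlock M G ∧ ¬ p ∣ charDegree (χ : G → ℂ)

theorem mem_hz (χ : IrrCharacter G) :
    χ ∈ hz p M G ↔ χ ∈ principalBlock M G ∧ ¬ p ∣ charDegree (χ : G → ℂ) := by
  simp [hz]

theorem card_hz : Nat.card {χ : IrrCharacter G // χ ∈ principalBlock M G ∧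
    ¬ p ∣ charDegree (χ : G → ℂ)} = (hz p M G).card := by
  rw [← Nat.card_eq_finsetCard]
  exact Nat.card_congr (Equiv.subtypeEquivRight fun χ => (mem_hz χ).symm)

theorem deg_one : charDegree (oneIrr G : G → ℂ) = 1 := by
  have := irr_charDegree_eq (oneIrr G)
  rw [oneIrr_apply] at this
  exact_mod_cast this

theorem one_mem_hz (hM : IsPModular p M) : oneIrr G ∈ hz p M G :=
  (mem_hz _).2 ⟨oneIrr_mem_principalBlock hM, by rw [deg_one]; exact hM.1.not_dvd_one⟩

/-- For a group of order prime to `p` the principal block is trivial. -/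
theorem card_eq_one (hM : IsPModular p M) (h : ¬ p ∣ Nat.card G) :
    Nat.card {χ : IrrCharacter G // χ ∈ principalBlock M G ∧
      ¬ p ∣ charDegree (χ : G → ℂ)} = 1 := by
  have h1 : principalBlock M G = {oneIrr G} := (blockOf_eq_singleton_iff hM (oneIrr G)).2 (by
    rw [deg_one, Nat.factorization_eq_zero_of_not_dvd h, Nat.factorization_one]; rfl)
  rw [card_hz, Finset.card_eq_one]
  refine ⟨oneIrr G, Finset.eq_singleton_iff_unique_mem.2 ⟨one_mem_hz hM, fun χ hχ => ?_⟩⟩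
  have := ((mem_hz χ).1 hχ).1
  rwa [h1] at this

/-- For `p = 2` dividing the order the number of members of odd degree is even. -/
theorem two_dvd_card (hM : IsPModular 2 M) (h : 2 ∣ Nat.card G) :
    2 ∣ Nat.card {χ : IrrCharacter G // χ ∈ principalBlock M G ∧
      ¬ 2 ∣ charDegree (χ : G → ℂ)} := by
  have h1 := pow_dvd_sum hM one_le_two (by rwa [pow_one]) _ (mem_hz (G := G))
  rw [pow_one, ← ZMod.natCast_eq_zero_iff, Nat.cast_sum, Finset.sum_congr rfl
    (g := fun _ => (1 : ZMod 2)) fun χ hχ => by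
      rw [Nat.cast_pow, ZMod.natCast_eq_one_iff_odd.2
        (Nat.not_even_iff_odd.1 (mt even_iff_two_dvd.1 ((mem_hz χ).1 hχ).2)), one_pow]] at h1
  rw [card_hz, ← ZMod.natCast_eq_zero_iff]
  simpa using h1

theorem not_sq_dvd_of_key [Fact p.Prime] (hM : IsPModular p M) {m : ℕ}
    (key : ∀ D : Fin (m + 1) → ℤ, ¬ (p : ℤ) ∣ D 0 → (p : ℤ) ^ 2 ∣ 1 + ∑ i, D i ^ 2 →
      ∃ t : ℤ, t ^ 2 + ∑ i, ((t * D i : ℤ) : ZMod p).valMinAbs ^ 2 < p * t ∨
        (t ^ 2 + ∑ i, ((t * D i : ℤ) : ZMod p).valMinAbs ^ 2 = p * t ∧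
          t + ∑ i, ((t * D i : ℤ) : ZMod p).valMinAbs * D i ≠ 0 ∧
          t + ∑ i, ((t * D i : ℤ) : ZMod p).valMinAbs * D i ≠ p))
    (hk : Nat.card {χ : IrrCharacter G // χ ∈ principalBlock M G ∧
      ¬ p ∣ charDegree (χ : G → ℂ)} ≤ m + 2) : ¬ p ^ 2 ∣ Nat.card G := by
  classical
  intro h2
  have hp := hM.1
  have h1 := one_mem_hz (G := G) hM
  have hsq := pow_dvd_sum hM le_rfl h2 _ (mem_hz (G := G))
  rw [← Finset.add_sum_erase _ _ h1, deg_one, one_pow] at hsq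
  rcases ((hz p M G).erase (oneIrr G)).eq_empty_or_nonempty with he | he
  · rw [he, Finset.sum_empty, add_zero, Nat.dvd_one, Nat.pow_eq_one] at hsq
    exact hsq.elim hp.ne_one two_ne_zero
  obtain ⟨D, ⟨a, ha, hD0⟩, hD⟩ := exists_pad _ (fun χ : IrrCharacter G =>
    (charDegree (χ : G → ℂ) : ℤ)) (n := m) (by
      rw [card_hz] at hk; rw [Finset.card_erase_of_mem h1]; omega) he
  obtain ⟨t, ht⟩ := key D (by
    rw [hD0, Int.natCast_dvd_natCast]; exact ((mem_hz a).1 (Finset.mem_of_mem_erase ha)).2) (by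
    rw [hD (· ^ 2) (by simp)]; exact_mod_cast hsq)
  rw [hD (fun x => ((t * x : ℤ) : ZMod p).valMinAbs ^ 2) (by simp),
    hD (fun x => ((t * x : ℤ) : ZMod p).valMinAbs * x) (by simp)] at ht
  let n : IrrCharacter G → ℤ := fun χ => if χ = oneIrr G then t else if χ ∈ hz p M G then
    ((t * (charDegree (χ : G → ℂ) : ℤ) : ℤ) : ZMod p).valMinAbs else 0
  have n1 : n (oneIrr G) = t := if_pos rfl
  have n0 : ∀ χ, χ ∉ hz p M G → n χ = 0 := fun χ h => by
    simp only [n, if_neg h, if_neg (ne_of_mem_of_not_mem h1 h).symm]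
  have ne : ∀ χ ∈ (hz p M G).erase (oneIrr G),
      n χ = ((t * (charDegree (χ : G → ℂ) : ℤ) : ℤ) : ZMod p).valMinAbs := fun χ h => by
    simp only [n, if_neg (Finset.ne_of_mem_erase h), if_pos (Finset.mem_of_mem_erase h)]
  have hm := moment hM (dvd_of_mul_right_dvd (sq p ▸ h2)) _ mem_hz n n0 (fun k hk χ => by
    have e1 : gal hk χ = oneIrr G ↔ χ = oneIrr G :=
      (gal_inj hk).eq_iff' (Subtype.ext rfl)
    have hb := (Finite.injective_iff_surjective (f := fun x : hz p M G => (⟨gal hk x,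
      (mem_hz _).2 ⟨gal_mem_pb hM hk ((mem_hz _).1 x.2).1, by
        rw [charDegree_gal]; exact ((mem_hz _).1 x.2).2⟩⟩ : hz p M G))).1
      fun x y h => Subtype.ext (gal_inj hk (congrArg Subtype.val h))
    have e2 : gal hk χ ∈ hz p M G ↔ χ ∈ hz p M G := ⟨fun h => by
      obtain ⟨x, hx⟩ := hb ⟨_, h⟩
      rw [← gal_inj hk (congrArg Subtype.val hx)]
      exact x.2, fun h => (mem_hz _).2 ⟨gal_mem_pb hM hk ((mem_hz _).1 h).1, by
        rw [charDegree_gal]; exact ((mem_hz _).1 h).2⟩⟩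
    simp only [n, e1, e2, charDegree_gal]) fun χ hχ => by
      rw [n1]
      by_cases h : χ = oneIrr G
      · rw [h, n1, deg_one]; simp
      · rw [ne χ (Finset.mem_erase.2 ⟨h, hχ⟩), ← ZMod.intCast_zmod_eq_zero_iff_dvd,
          Int.cast_sub, ZMod.coe_valMinAbs, sub_self]
  have s1 : ∀ F : IrrCharacter G → ℤ → ℤ, (∀ χ, F χ 0 = 0) → ∑ χ, F χ (n χ) =
      F (oneIrr G) t + ∑ χ ∈ (hz p M G).erase (oneIrr G),
        F χ ((t * (charDegree (χ : G → ℂ) : ℤ) : ℤ) : ZMod p).valMinAbs := fun F hF => by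
    rw [← Finset.sum_subset (Finset.subset_univ (hz p M G)) fun χ _ h => by rw [n0 χ h, hF],
      ← Finset.add_sum_erase _ _ h1, n1]
    exact congrArg _ (Finset.sum_congr rfl fun χ h => by rw [ne χ h])
  rw [s1 (fun _ x => x ^ 2) (by simp), s1 (fun χ x => x * charDegree (χ : G → ℂ)) (by simp),
    n1, deg_one, Nat.cast_one, mul_one] at hm
  rcases ht with ht | ⟨ht, h3, h4⟩
  · exact absurd hm.1 (not_le.2 ht)
  · exact (hm.2 ht).elim h3 h4

theorem card_sylow_eq [Fact p.Prime] (P : Sylow p G) (h1 : p ∣ Nat.card G)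
    (h2 : ¬ p ^ 2 ∣ Nat.card G) : Nat.card P = p := by
  have hp : p.Prime := Fact.out
  have hG : Nat.card G ≠ 0 := Nat.card_pos.ne'
  have a := hp.factorization_pos_of_dvd hG h1
  rw [hp.pow_dvd_iff_le_factorization hG] at h2
  rw [P.card_eq_multiplicity, show (Nat.card G).factorization p = 1 by omega, pow_one]

end CF.K5
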