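import Cfsg.Agent.S0960

/-! Height zero characters of the principal block for a Sylow subgroup of odd prime order. -/

set_option autoImplicit false
open Cfsg

namespace CF.K5

open CF.Small CF.PF CF.BlockB

theorem cnt {G : Type*} [Group G] [Finite G] (p : ℕ) [Fact p.Prime] (hp : p ≠ 2)
    (M : Ideal Cfsg.AlgInt) (hM : Cfsg.IsPModular p M) (P : Sylow p G) (h : Nat.card P = p) :
    Nat.card {χ : Cfsg.IrrCharacter G // χ ∈ Cfsg.principalBlock M G ∧
        ¬ p ∣ Cfsg.charDegree (χ : G → ℂ)} =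
      (Subgroup.centralizer ((P : Subgroup G) : Set G)).relIndex
          (Subgroup.normalizer ((P : Subgroup G) : Set G)) +
        (p - 1) / (Subgroup.centralizer ((P : Subgroup G) : Set G)).relIndex
          (Subgroup.normalizer ((P : Subgroup G) : Set G)) ∧
    (Subgroup.centralizer ((P : Subgroup G) : Set G)).relIndex
      (Subgroup.normalizer ((P : Subgroup G) : Set G)) ∣ p - 1 := by
  obtain ⟨h1, h2⟩ := Cfsg.Agent.S0960.result p M hM hp P h _ rfl
  obtain ⟨S, hS⟩ := exists_pset_sylow P h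
  have hd : (Subgroup.centralizer ((P : Subgroup G) : Set G)).relIndex
      (Subgroup.normalizer ((P : Subgroup G) : Set G)) ∣ p - 1 := by
    rw [← hS]; exact S.fi_dvd
  have hn : ¬ p ∣ (Subgroup.centralizer ((P : Subgroup G) : Set G)).relIndex
      (Subgroup.normalizer ((P : Subgroup G) : Set G)) := by
    rw [← hS]; exact S.not_dvd_fi
  refine ⟨?_, hd⟩
  rw [← h1]
  refine Nat.card_congr (Equiv.subtypeEquivRight fun χ => ⟨fun h => h.1, fun hχ => ⟨hχ, ?_⟩⟩)
  intro hdv
  have h0 : (p : ℤ) ∣ (Cfsg.charDegree (χ : G → ℂ) : ℤ) := Int.natCast_dvd_natCast.2 hdv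
  have hp1 : ¬ (p : ℤ) ∣ 1 := fun h => (Fact.out : p.Prime).one_lt.ne'
    (Nat.dvd_one.1 (Int.natCast_dvd_natCast.1 h))
  have hn' := mt Int.natCast_dvd_natCast.1 hn
  rcases h2 χ hχ with h3 | h3 | h3 | h3
  · exact hp1 (by simpa using dvd_add h3.dvd h0)
  · exact hp1 (by simpa using dvd_add h3.dvd h0)
  · exact hn' (by simpa using dvd_add h3.dvd h0)
  · exact hn' (by simpa using dvd_add h3.dvd h0)

end CF.K5
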