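import Cfsg.Agent.K5.A
import Cfsg.Agent.Uni.A

/-! At most five members of `p'`-degree in the principal block force a Sylow subgroup of
order `p`, for odd `p`. -/

set_option autoImplicit false
open Cfsg

namespace CF.K5

theorem card_eq {G : Type*} [Group G] [Finite G] (p : ℕ) [Fact p.Prime] (hp : p ≠ 2)
    (M : Ideal AlgInt) (hM : IsPModular p M) (P : Sylow p G)
    (h2 : 2 ≤ Nat.card {χ : IrrCharacter G // χ ∈ principalBlock M G ∧
      ¬ p ∣ charDegree (χ : G → ℂ)})
    (h5 : Nat.card {χ : IrrCharacter G // χ ∈ principalBlock M G ∧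
      ¬ p ∣ charDegree (χ : G → ℂ)} ≤ 5) : Nat.card P = p :=
  card_sylow_eq P (by_contra fun h => by rw [card_eq_one hM h] at h2; omega)
    (not_sq_dvd_of_key hM (m := 3) (CF.Uni.key p hp) h5)

theorem eq_of_card_prime {G : Type*} [Group G] [Finite G] {p q : ℕ} [Fact p.Prime]
    (P : Sylow p G) (hq : q.Prime) (h : Nat.card P = q) : p = q := by
  obtain ⟨n, hn⟩ := P.isPGroup'.exists_card_eq
  have : q ∣ p ^ n := hn ▸ h ▸ dvd_rfl
  exact ((Nat.prime_dvd_prime_iff_eq hq Fact.out).1 (hq.dvd_of_dvd_pow this)).symm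

end CF.K5
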